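import Mathlib.GroupTheory.Perm.Cycle.Type
import Mathlib.GroupTheory.Sylow
import Mathlib.Tactic

/-!
Fixed point counts for conjugation on an invariant subset of a finite group.
-/

set_option autoImplicit false
set_option linter.unusedSectionVars false

namespace Cfsg.Agent.ALT

open Subgroup

variable {G : Type*} [Group G] [Finite G]

theorem ncard_modEq_fixed {X : Set G} {f : G} {p : ℕ} [Fact p.Prime]
    (hX : ∀ x ∈ X, f * x * f⁻¹ ∈ X) (hp : ∀ x ∈ X, f ^ p * x = x * f ^ p) :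
    X.ncard ≡ {x | x ∈ X ∧ f * x = x * f}.ncard [MOD p] := by
  classical
  let F : Function.End X := fun x => ⟨f * x * f⁻¹, hX x x.2⟩
  have hF : ∀ (n : ℕ) (x : X), ((F ^ n) x : G) = f ^ n * x * (f ^ n)⁻¹ := fun n => by
    induction n with
    | zero => intro x; simp; rfl
    | succ n ih =>
      intro x
      rw [pow_succ', pow_succ']
      show f * ((F ^ n) x : G) * f⁻¹ = _
      rw [ih]; group
  have h1 : F ^ p ^ 1 = 1 := funext fun x => Subtype.ext (by
    rw [pow_one, hF, hp x x.2, mul_inv_cancel_right]; rfl)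
  have := Fintype.ofFinite X
  have h2 := Equiv.Perm.card_fixedPoints_modEq h1
  rw [← Nat.card_eq_fintype_card, ← Nat.card_eq_fintype_card] at h2
  rw [← Nat.card_coe_set_eq, ← Nat.card_coe_set_eq]
  suffices e : Nat.card (Function.fixedPoints F) = Nat.card {x | x ∈ X ∧ f * x = x * f} from
    e ▸ h2
  refine Nat.card_congr ⟨fun x => ⟨x.1.1, x.1.2, ?_⟩,
    fun x => ⟨⟨x.1, x.2.1⟩, Subtype.ext ?_⟩, fun _ => rfl, fun _ => rfl⟩
  · have : f * x.1.1 * f⁻¹ = x.1.1 := congrArg Subtype.val x.2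
    exact mul_inv_eq_iff_eq_mul.1 this
  · exact mul_inv_eq_iff_eq_mul.2 x.2.2

theorem exists_fixed_of_not_dvd {X : Set G} {T : Subgroup G} {p : ℕ} [Fact p.Prime]
    (hT : IsPGroup p T) (hX : ∀ t ∈ T, ∀ x ∈ X, t * x * t⁻¹ ∈ X) (h : ¬ p ∣ X.ncard) :
    ∃ x ∈ X, ∀ t ∈ T, t * x = x * t := by
  let _ : MulAction T X :=
    { smul := fun t x => ⟨t * x * (t : G)⁻¹, hX t t.2 x x.2⟩
      one_smul := fun x => Subtype.ext (by show (1 : G) * x * 1⁻¹ = x; simp)
      mul_smul := fun s t x => Subtype.ext (by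
        show (s * t : G) * x * (s * t : G)⁻¹ = s * (t * x * (t : G)⁻¹) * (s : G)⁻¹
        group) }
  obtain ⟨x, hx⟩ := hT.nonempty_fixed_point_of_prime_not_dvd_card X
    (by rwa [Nat.card_coe_set_eq])
  refine ⟨x, x.2, fun t ht => ?_⟩
  have : t * x * t⁻¹ = x := congrArg Subtype.val (hx ⟨t, ht⟩)
  exact mul_inv_eq_iff_eq_mul.1 this

end Cfsg.Agent.ALT
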