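import Cfsg.Agent.ALT.Small
import Cfsg.Agent.ALT.Count
import Mathlib.GroupTheory.SpecificGroups.Alternating.Simple

/-!
Groups of shape `(2⁴ × odd).A₅` in which a Sylow 2-subgroup has centre of order at most 2.
-/

set_option autoImplicit false
set_option linter.unusedSectionVars false

namespace Cfsg.Agent.ALT

open Subgroup

/-- `N / (A × O) ≅ A₅`, `A` elementary abelian of order 16, `O` of odd order. -/
structure E16 {N : Type*} [Group N] (A O T : Subgroup N) (φ : N →* alternatingGroup (Fin 5)) :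
    Prop where
  sq : ∀ a ∈ A, a * a = 1
  comm : ∀ a ∈ A, ∀ b ∈ A, a * b = b * a
  card : Nat.card A = 16
  nA : A.Normal
  nO : O.Normal
  odd : (Nat.card O).Coprime 2
  surj : Function.Surjective φ
  ker : φ.ker = A ⊔ O
  two : IsPGroup 2 T
  le : A ≤ T
  cent : ∀ z ∈ T, ∀ w ∈ T, (∀ y ∈ T, y * z = z * y) → (∀ y ∈ T, y * w = w * y) → z ≠ 1 → w ≠ 1 →
    z = w

variable {N : Type*} [Group N] [Finite N] {A O T : Subgroup N}
  {φ : N →* alternatingGroup (Fin 5)}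

namespace E16

theorem odd_order (h : E16 A O T φ) {o : N} (ho : o ∈ O) : (orderOf o).Coprime 2 :=
  Nat.Coprime.of_dvd_left (orderOf_dvd_natCard O ho) h.odd

theorem disj (h : E16 A O T φ) : Disjoint A O := by
  rw [disjoint_def]
  intro x ha ho
  have h1 : orderOf x ∣ 2 := orderOf_dvd_of_pow_eq_one (by rw [pow_two, h.sq x ha])
  exact orderOf_eq_one_iff.1 (Nat.Coprime.eq_one_of_dvd (h.odd_order ho) h1)

theorem comm_O (h : E16 A O T φ) {a o : N} (ha : a ∈ A) (ho : o ∈ O) : a * o = o * a :=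
  commute_of_normal_of_disjoint A O h.nA h.nO h.disj a o ha ho

theorem split (h : E16 A O T φ) {x : N} (hx : φ x = 1) : ∃ a ∈ A, ∃ o ∈ O, x = a * o := by
  have := h.nO
  have : x ∈ ((A ⊔ O : Subgroup N) : Set N) := h.ker ▸ (MonoidHom.mem_ker.2 hx)
  rw [mul_normal] at this
  obtain ⟨a, ha, o, ho, e⟩ := this
  exact ⟨a, ha, o, ho, e.symm⟩

theorem map_A (h : E16 A O T φ) {a : N} (ha : a ∈ A) : φ a = 1 :=
  MonoidHom.mem_ker.1 (h.ker ▸ mem_sup_left ha)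

theorem cent_of_ker (h : E16 A O T φ) {x a : N} (hx : φ x = 1) (ha : a ∈ A) : x * a = a * x := by
  obtain ⟨b, hb, o, ho, rfl⟩ := h.split hx
  rw [mul_assoc, ← h.comm_O ha ho, ← mul_assoc, h.comm b hb a ha, mul_assoc]

theorem mem_of_ker (h : E16 A O T φ) {x : N} (hx : φ x = 1) {k : ℕ} (h2 : x ^ 2 ^ k = 1) :
    x ∈ A := by
  obtain ⟨a, ha, o, ho, rfl⟩ := h.split hx
  have hc : Commute a o := h.comm_O ha ho
  rw [hc.mul_pow, mul_eq_one_iff_eq_inv] at h2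
  have h3 : o ^ 2 ^ k = 1 := disjoint_def.1 h.disj
    (A.inv_mem_iff.1 (h2 ▸ pow_mem ha (2 ^ k))) (pow_mem ho _)
  have : o = 1 := orderOf_eq_one_iff.1 (Nat.Coprime.eq_one_of_dvd
    ((h.odd_order ho).pow_right k) (orderOf_dvd_of_pow_eq_one h3))
  rwa [this, mul_one]

theorem ncard_A (h : E16 A O T φ) : (A : Set N).ncard = 16 := by
  rw [← Nat.card_coe_set_eq]; exact h.card

theorem ker_of_cent (h : E16 A O T φ) {x : N} (hx : ∀ a ∈ A, x * a = a * x) : φ x = 1 := by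
  have := h.nA
  have hn : (centralizer (A : Set N)).Normal := inferInstance
  rcases (hn.map φ h.surj).eq_bot_or_eq_top with e | e
  · exact mem_bot.1 (e ▸ mem_map_of_mem φ (mem_centralizer_iff.2 fun a ha => (hx a ha).symm))
  · exfalso
    have key : ∀ y, ∀ a ∈ A, y * a = a * y := fun y a ha => by
      obtain ⟨c, hc, e'⟩ : φ y ∈ (centralizer (A : Set N)).map φ := e ▸ mem_top _
      have h1 := h.cent_of_ker (x := c⁻¹ * y) (by rw [map_mul, map_inv, e', inv_mul_cancel]) ha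
      have h2 : a * c = c * a := mem_centralizer_iff.1 hc a ha
      calc y * a = c * (c⁻¹ * y * a) := by group
        _ = (c * a) * c⁻¹ * y := by rw [h1]; group
        _ = a * y := by rw [← h2]; group
    obtain ⟨a, b, c, ha, hb, hc, hab, hac, hbc⟩ :=
      (Set.two_lt_ncard_iff (s := (A : Set N))).1 (by rw [h.ncard_A]; norm_num)
    have k : ∀ z ∈ A, ∀ w ∈ A, z ≠ 1 → w ≠ 1 → z = w := fun z hz w hw =>
      h.cent z (h.le hz) w (h.le hw) (fun y _ => key y z hz) fun y _ => key y w hw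
    by_cases e1 : a = 1
    · exact hbc (k b hb c hc (fun e => hab (e1.trans e.symm)) fun e => hac (e1.trans e.symm))
    · by_cases e2 : b = 1
      · exact hac (k a ha c hc e1 fun e => hbc (e2.trans e.symm))
      · exact hab (k a ha b hb e1 e2)

theorem modEq_five (h : E16 A O T φ) {f : N} (h5 : φ f ^ 5 = 1) {X : Set N} (hXA : X ⊆ A)
    (hX : ∀ x ∈ X, f * x * f⁻¹ ∈ X) : X.ncard ≡ {x | x ∈ X ∧ f * x = x * f}.ncard [MOD 5] :=
  haveI : Fact (Nat.Prime 5) := ⟨by norm_num⟩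
  ncard_modEq_fixed hX fun _ hx => h.cent_of_ker (by rw [map_pow, h5]) (hXA hx)

theorem eq_of_modEq (h : E16 A O T φ) {W : Subgroup N} (hW : W ≤ A)
    (h5 : Nat.card W ≡ 1 [MOD 5]) : W = ⊥ ∨ W = A := by
  have h1 : Nat.card W ∣ 2 ^ 4 := by
    have := card_dvd_of_le hW
    rwa [h.card] at this
  obtain ⟨k, hk, e⟩ := (Nat.dvd_prime_pow Nat.prime_two).1 h1
  rw [e] at h5
  interval_cases k
  · exact Or.inl (eq_bot_of_card_eq _ e)
  · exact absurd h5 (by decide)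
  · exact absurd h5 (by decide)
  · exact absurd h5 (by decide)
  · exact Or.inr (eq_of_le_of_card_ge hW (by rw [e, h.card]; norm_num))

theorem fpf (h : E16 A O T φ) {f : N} (h5 : φ f ^ 5 = 1) (h1 : φ f ≠ 1) {a : N} (ha : a ∈ A)
    (hc : f * a = a * f) : a = 1 := by
  have e := h.modEq_five h5 (X := A) le_rfl fun x hx => h.nA.conj_mem x hx f
  have e2 : {x | x ∈ (A : Set N) ∧ f * x = x * f} =
      ((A ⊓ centralizer {f} : Subgroup N) : Set N) := by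
    ext x; simp [mem_centralizer_singleton_iff, eq_comm]
  rw [h.ncard_A, e2, ← Nat.card_coe_set_eq] at e
  rcases h.eq_of_modEq (W := A ⊓ centralizer {f}) inf_le_left
    (e.symm.trans (by decide)) with e | e
  · exact mem_bot.1 (e ▸ ⟨ha, mem_centralizer_singleton_iff.2 hc.symm⟩)
  · exact absurd (h.ker_of_cent fun b hb =>
      (mem_centralizer_singleton_iff.1 (e.ge hb).2).symm) h1

theorem irred (h : E16 A O T φ) {f : N} (h5 : φ f ^ 5 = 1) (h1 : φ f ≠ 1) {W : Subgroup N}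
    (hW : W ≤ A) (hX : ∀ x ∈ W, f * x * f⁻¹ ∈ W) : W = ⊥ ∨ W = A := by
  have e := h.modEq_five h5 (X := W) hW hX
  have e2 : {x | x ∈ (W : Set N) ∧ f * x = x * f} = {1} := by
    ext x
    exact ⟨fun hx => h.fpf h5 h1 (hW hx.1) hx.2, by rintro rfl; exact ⟨W.one_mem, by simp⟩⟩
  rw [e2, Set.ncard_singleton, ← Nat.card_coe_set_eq] at e
  exact h.eq_of_modEq hW e

theorem five_dvd (h : E16 A O T φ) {f : N} (h5 : φ f ^ 5 = 1) (h1 : φ f ≠ 1) {X : Set N}
    (hXA : X ⊆ A) (hX1 : 1 ∉ X) (hX : ∀ x ∈ X, f * x * f⁻¹ ∈ X) : 5 ∣ X.ncard := by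
  have e := h.modEq_five h5 hXA hX
  have e2 : {x | x ∈ X ∧ f * x = x * f} = ∅ :=
    Set.eq_empty_of_forall_notMem fun x hx => hX1 (h.fpf h5 h1 (hXA hx.1) hx.2 ▸ hx.1)
  rw [e2, Set.ncard_empty] at e
  exact Nat.modEq_zero_iff_dvd.1 e

theorem exists_five (h : E16 A O T φ) : ∃ f : N, φ f ^ 5 = 1 ∧ φ f ≠ 1 ∧ φ (f * f) ^ 5 = 1 ∧
    φ (f * f) ≠ 1 := by
  obtain ⟨x, hx, hx1⟩ := a5_exists
  obtain ⟨g, e1, e2⟩ := a5_five hx hx1
  obtain ⟨f, hf⟩ := h.surj (x * (g * x * g⁻¹))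
  rw [← hf] at e1 e2
  refine ⟨f, e2, e1, by rw [map_mul, ← pow_two, ← pow_mul, mul_comm, pow_mul, e2, one_pow],
    fun e => e1 ?_⟩
  rw [map_mul] at e
  calc φ f = φ f * (φ f * φ f) * (φ f * φ f) := by rw [e]; simp
    _ = φ f ^ 5 := by simp [pow_succ, mul_assoc]
    _ = 1 := e2

/-- At most two invariant classes of involutions in `A`. -/
theorem no_three (h : E16 A O T φ) {X Y Z : Set N} (hX : X ⊆ A) (hY : Y ⊆ A) (hZ : Z ⊆ A)
    (hX1 : 1 ∉ X) (hY1 : 1 ∉ Y) (hZ1 : 1 ∉ Z) (iX : ∀ g, ∀ x ∈ X, g * x * g⁻¹ ∈ X)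
    (iY : ∀ g, ∀ x ∈ Y, g * x * g⁻¹ ∈ Y) (iZ : ∀ g, ∀ x ∈ Z, g * x * g⁻¹ ∈ Z)
    (nX : X.Nonempty) (nY : Y.Nonempty) (nZ : Z.Nonempty) (dXY : Disjoint X Y)
    (dXZ : Disjoint X Z) (dYZ : Disjoint Y Z) : False := by
  obtain ⟨f, h5, h1, -⟩ := h.exists_five
  have a1 := h.five_dvd h5 h1 hX hX1 (iX f)
  have a2 := h.five_dvd h5 h1 hY hY1 (iY f)
  have a3 := h.five_dvd h5 h1 hZ hZ1 (iZ f)
  have b1 := (Set.ncard_pos (Set.toFinite X)).2 nX
  have b2 := (Set.ncard_pos (Set.toFinite Y)).2 nY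
  have b3 := (Set.ncard_pos (Set.toFinite Z)).2 nZ
  have c : (insert 1 (X ∪ Y ∪ Z)).ncard ≤ 16 := h.ncard_A ▸ Set.ncard_le_ncard
    (Set.insert_subset A.one_mem (Set.union_subset (Set.union_subset hX hY) hZ))
  rw [Set.ncard_insert_of_notMem (by simp [hX1, hY1, hZ1]),
    Set.ncard_union_eq (Set.disjoint_union_left.2 ⟨dXZ, dYZ⟩), Set.ncard_union_eq dXY] at c
  obtain ⟨x, hx, cx⟩ := exists_fixed_of_not_dvd h.two (fun t _ => iX t) (by omega)
  obtain ⟨y, hy, cy⟩ := exists_fixed_of_not_dvd h.two (fun t _ => iY t) (by omega)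
  have := h.cent x (h.le (hX hx)) y (h.le (hY hy)) cx cy (fun e => hX1 (e ▸ hx))
    fun e => hY1 (e ▸ hy)
  exact Set.disjoint_left.1 dXY hx (this ▸ hy)

end E16

end Cfsg.Agent.ALT
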