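import Cfsg.Agent.ALT.E16A5
import Cfsg.Agent.H49.Prod

/-!
In a group of shape `(2⁴ × odd).A₅` the involutions outside `2⁴` are conjugate.
-/

set_option autoImplicit false
set_option linter.unusedSectionVars false

namespace Cfsg.Agent.ALT

open Subgroup Cfsg.Agent.H49

variable {N : Type*} [Group N] [Finite N] {A O T : Subgroup N}
  {φ : N →* alternatingGroup (Fin 5)}

namespace E16

theorem card_cent_le (h : E16 A O T φ) {t : N} (h2 : φ t * φ t = 1) (h1 : φ t ≠ 1) :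
    Nat.card ↥(A ⊓ 𝒞[t]) ≤ 4 := by
  obtain ⟨g', e1, e2⟩ := a5_five h2 h1
  obtain ⟨g, rfl⟩ := h.surj g'
  have e3 : φ t * (φ g * φ t * (φ g)⁻¹) = φ (t * (g * t * g⁻¹)) := by simp
  rw [e3] at e1 e2
  have hA : cj g A = A := cj_eq_of_mem_norm (normal_iff_top_le_norm.1 h.nA (mem_top g))
  have e4 : cj g (A ⊓ 𝒞[t]) = A ⊓ 𝒞[g * t * g⁻¹] := by rw [cj_inf, hA, cj_cent1]
  have hd : Disjoint (A ⊓ 𝒞[t]) (A ⊓ 𝒞[g * t * g⁻¹]) := disjoint_def.2 fun {x} hx hy =>
    h.fpf e2 e1 hx.1 (by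
      rw [mul_assoc, ← mem_cent1.1 hy.2, ← mul_assoc, ← mem_cent1.1 hx.2, mul_assoc])
  have hinj := mul_injective_of_disjoint hd
  have hle : Nat.card (↥(A ⊓ 𝒞[t]) × ↥(A ⊓ 𝒞[g * t * g⁻¹])) ≤ Nat.card A :=
    Nat.card_le_card_of_injective
      (fun x => (⟨x.1.1 * x.2.1, mul_mem x.1.2.1 x.2.2.1⟩ : A))
      fun x y e => hinj (congrArg Subtype.val e)
  rw [Nat.card_prod, ← e4, card_cj, h.card] at hle
  by_contra hlt
  have := Nat.mul_le_mul (not_le.1 hlt) (not_le.1 hlt)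
  omega

theorem exists_comm (h : E16 A O T φ) {t : N} (h2 : φ t * φ t = 1) (h1 : φ t ≠ 1) {a : N}
    (ha : a ∈ A) (hc : a * t = t * a) : ∃ b ∈ A, a = b * (t * b * t⁻¹) := by
  let δ : A →* N :=
    { toFun := fun b => b * (t * b * t⁻¹)
      map_one' := by simp
      map_mul' := fun b c => by
        have := h.comm _ (h.nA.conj_mem b b.2 t) c c.2
        show (b * c : N) * (t * (b * c) * t⁻¹) = b * (t * b * t⁻¹) * (c * (t * c * t⁻¹))
        calc (b * c : N) * (t * (b * c) * t⁻¹) = b * (c * (t * b * t⁻¹)) * (t * c * t⁻¹) := by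
              group
          _ = _ := by rw [← this]; group }
  have hr : δ.range ≤ A ⊓ 𝒞[t] := by
    rintro _ ⟨b, rfl⟩
    refine ⟨mul_mem b.2 (h.nA.conj_mem b b.2 t), mem_cent1.2 ?_⟩
    have e1 := h.cent_of_ker (x := t * t) (by rw [map_mul, h2]) b.2
    have e2 := h.comm _ (h.nA.conj_mem b b.2 t) b b.2
    show (b : N) * (t * b * t⁻¹) * t = t * (b * (t * b * t⁻¹))
    calc (b : N) * (t * b * t⁻¹) * t = b * (t * t) * t⁻¹ * b := by group
      _ = t * (t * b * t⁻¹ * b) := by rw [← e1]; group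
      _ = _ := by rw [e2]
  have hk : δ.ker.map A.subtype ≤ A ⊓ 𝒞[t] := by
    rintro _ ⟨b, hb, rfl⟩
    refine ⟨b.2, mem_cent1.2 ?_⟩
    have e1 : (b : N) * (t * b * t⁻¹) = 1 := hb
    have e2 := h.sq b b.2
    show (b : N) * t = t * b
    calc (b : N) * t = b * (b * (t * b * t⁻¹)) * t := by rw [e1, mul_one]
      _ = (b * b) * t * b := by group
      _ = _ := by rw [e2, one_mul]
  have c1 := card_le_of_le hk
  rw [card_map_of_injective A.subtype_injective] at c1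
  have c2 : Nat.card δ.ker * Nat.card δ.range = 16 := by
    rw [← h.card, ← δ.ker.card_mul_index, index_ker]
  have c3 := h.card_cent_le h2 h1
  have c4 : Nat.card ↥(A ⊓ 𝒞[t]) ≤ Nat.card δ.range := by
    by_contra hlt
    have := Nat.mul_le_mul (c1.trans c3) (Nat.le_of_lt_succ ((not_le.1 hlt).trans_le c3))
    omega
  obtain ⟨b, hb⟩ := (eq_of_le_of_card_ge hr c4).ge ⟨ha, mem_cent1.2 hc⟩
  exact ⟨b, b.2, hb.symm⟩

theorem conj_of_map_eq (h : E16 A O T φ) {t u : N} (ht : t * t = 1) (hu : u * u = 1)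
    (h1 : φ t ≠ 1) (e : φ t = φ u) : IsConj t u := by
  have h2 : φ t * φ t = 1 := by rw [← map_mul, ht, map_one]
  have ti : t⁻¹ = t := inv_eq_of_mul_eq_one_right ht
  have ui : u⁻¹ = u := inv_eq_of_mul_eq_one_right hu
  obtain ⟨a, ha, o, ho, ex⟩ := h.split (x := t * u) (by rw [map_mul, ← e, h2])
  obtain ⟨k, hk⟩ : Odd (orderOf o) := Nat.coprime_two_right.1 (h.odd_order ho)
  have hc : Commute a o := h.comm_O ha ho
  have e1 : (t * u) ^ (2 * k + 1) = a := by
    rw [ex, hc.mul_pow, ← hk, pow_orderOf_eq_one, hk, pow_succ, pow_mul, pow_two, h.sq a ha]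
    simp
  have e2 : t * (t * u) ^ k = ((t * u) ^ k)⁻¹ * t := by
    have : t * (t * u) * t⁻¹ = (t * u)⁻¹ := by
      rw [mul_inv_rev, ti, ui, ← mul_assoc, ht, one_mul]
    rw [← inv_pow, ← this, conj_pow]; group
  have e3 : ((t * u) ^ k)⁻¹ * u * ((t * u) ^ k)⁻¹⁻¹ = t * a := by
    have : u = t * (t * u) := by rw [← mul_assoc, ht, one_mul]
    rw [← e1, inv_inv]
    calc ((t * u) ^ k)⁻¹ * u * (t * u) ^ k
        = (((t * u) ^ k)⁻¹ * t) * (t * u) * (t * u) ^ k := by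
          rw [mul_assoc _ t, ← this]
      _ = _ := by rw [← e2]; generalize t * u = x; group
  have e4 : (t * a) * (t * a) = 1 := by
    rw [← e3, conj_mul, hu]; simp
  have e5 : a * t = t * a := by
    calc a * t = (t * t) * a * t * (a * a) := by rw [ht, h.sq a ha]; simp
      _ = t * (t * a * (t * a)) * a := by group
      _ = _ := by rw [e4, mul_one]
  obtain ⟨b, hb, e6⟩ := h.exists_comm h2 h1 ha e5
  have e7 : b * t * b⁻¹ = t * a := by
    rw [← e5, e6, inv_eq_of_mul_eq_one_right (h.sq b hb)]; group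
  exact (isConj_iff.2 ⟨b, e7⟩).trans (isConj_iff.2 ⟨_, e3⟩).symm

theorem conj_outer (h : E16 A O T φ) {t u : N} (ht : t * t = 1) (hu : u * u = 1)
    (ht1 : t ∉ A) (hu1 : u ∉ A) : IsConj t u := by
  have k : ∀ {x : N}, x * x = 1 → x ∉ A → φ x * φ x = 1 ∧ φ x ≠ 1 := fun hx hx1 =>
    ⟨by rw [← map_mul, hx, map_one], fun e => hx1 (h.mem_of_ker e (k := 1) (by
      rw [pow_one, pow_two, hx]))⟩
  obtain ⟨g', e⟩ := a5_conj (k ht ht1).1 (k ht ht1).2 (k hu hu1).1 (k hu hu1).2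
  obtain ⟨g, rfl⟩ := h.surj g'
  have e' : φ (g * t * g⁻¹) = φ u := by rw [← e]; simp
  exact (isConj_iff.2 ⟨g, rfl⟩).trans
    (h.conj_of_map_eq (by rw [conj_mul, ht]; simp) hu (e' ▸ (k hu hu1).2) e')

end E16

theorem card_sylow_eq (hA : Nat.card A = 16) (nO : O.Normal) (odd : (Nat.card O).Coprime 2)
    (surj : Function.Surjective φ) (ker : φ.ker = A ⊔ O) (T : Sylow 2 N) : Nat.card T = 64 := by
  have e1 : φ.ker.index = 60 := by
    rw [index_ker, MonoidHom.range_eq_top.2 surj, card_top, card_a5]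
  have e2 : Nat.card ↥(A ⊔ O) = 16 * Nat.card O := by
    rw [card_sup_of_disjoint (Or.inl (le_top.trans (normal_iff_top_le_norm.1 nO)))
      (disjoint_of_coprime_natCard (by
        rw [hA]; exact (odd.pow_right 4).symm)).eq_bot, hA]
  have e3 : Nat.card N = 2 ^ 6 * (15 * Nat.card O) := by
    rw [← φ.ker.index_mul_card, e1, ker, e2]; ring
  have e4 : ¬ 2 ∣ 15 * Nat.card O := by
    have := Nat.odd_iff.1 (Nat.coprime_two_right.1 odd)
    omega
  rw [Sylow.card_eq_multiplicity, e3, Nat.factorization_mul (by norm_num)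
    (show 15 * Nat.card O ≠ 0 by omega), Nat.Prime.factorization_pow Nat.prime_two]
  simp [Nat.factorization_eq_zero_of_not_dvd e4]

end Cfsg.Agent.ALT
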