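import Mathlib.GroupTheory.SpecificGroups.Alternating
import Mathlib.GroupTheory.Sylow
import Mathlib.Tactic

/-!
Small facts on `A₅` and on a Sylow 2-subgroup of `A₈`.
-/

set_option autoImplicit false
set_option Elab.async false
set_option maxRecDepth 100000

namespace Cfsg.Agent.ALT

open Equiv Equiv.Perm Subgroup

/-- A fixed involution of `A₅`. -/
def s0 : Perm (Fin 5) := swap 0 1 * swap 2 3

theorem perm5_pow : ∀ s : Perm (Fin 5), sign s = 1 → s * s = 1 ∨ s * s * s = 1 ∨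
    s * s * s * s * s = 1 := by decide +kernel

theorem perm5_conj : ∀ s : Perm (Fin 5), sign s = 1 → s * s = 1 → s ≠ 1 →
    ∃ g : Perm (Fin 5), sign g = 1 ∧ g * s = s0 * g := by decide +kernel

theorem perm5_five : ∃ g : Perm (Fin 5), sign g = 1 ∧ s0 * (g * s0 * g⁻¹) ≠ 1 ∧
    (s0 * (g * s0 * g⁻¹)) ^ 5 = 1 := by decide +kernel

theorem a5_sq {x : alternatingGroup (Fin 5)} {k : ℕ} (h : x ^ 2 ^ k = 1) : x * x = 1 := by
  have h2 : orderOf x ∣ 2 ^ k := orderOf_dvd_of_pow_eq_one h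
  have key : ∀ m : ℕ, Nat.Coprime (2 ^ k) m → x ^ m = 1 → x * x = 1 := fun m hm hx => by
    have : orderOf x = 1 := Nat.eq_one_of_dvd_coprimes hm h2 (orderOf_dvd_of_pow_eq_one hx)
    rw [orderOf_eq_one_iff.1 this, mul_one]
  rcases perm5_pow x.1 (mem_alternatingGroup.1 x.2) with e | e | e
  · exact Subtype.ext e
  · exact key 3 (Nat.Coprime.pow_left _ (by norm_num)) (Subtype.ext (by simpa [pow_succ] using e))
  · exact key 5 (Nat.Coprime.pow_left _ (by norm_num)) (Subtype.ext (by simpa [pow_succ] using e))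

theorem a5_conj {x y : alternatingGroup (Fin 5)} (hx : x * x = 1) (hx1 : x ≠ 1) (hy : y * y = 1)
    (hy1 : y ≠ 1) : ∃ g, g * x * g⁻¹ = y := by
  obtain ⟨g, hg, e⟩ := perm5_conj x.1 (mem_alternatingGroup.1 x.2) (congrArg Subtype.val hx)
    fun e => hx1 (Subtype.ext e)
  obtain ⟨h, hh, e'⟩ := perm5_conj y.1 (mem_alternatingGroup.1 y.2) (congrArg Subtype.val hy)
    fun e => hy1 (Subtype.ext e)
  refine ⟨(⟨h, mem_alternatingGroup.2 hh⟩ : alternatingGroup (Fin 5))⁻¹ *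
    ⟨g, mem_alternatingGroup.2 hg⟩, Subtype.ext ?_⟩
  show h⁻¹ * g * x.1 * (h⁻¹ * g)⁻¹ = y.1
  calc h⁻¹ * g * x.1 * (h⁻¹ * g)⁻¹ = h⁻¹ * (g * x.1) * g⁻¹ * h := by group
    _ = h⁻¹ * (s0 * h) := by rw [e]; group
    _ = y.1 := by rw [← e']; group

theorem a5_five {x : alternatingGroup (Fin 5)} (hx : x * x = 1) (hx1 : x ≠ 1) :
    ∃ g, x * (g * x * g⁻¹) ≠ 1 ∧ (x * (g * x * g⁻¹)) ^ 5 = 1 := by
  obtain ⟨g, hg, e1, e2⟩ := perm5_five
  let s : alternatingGroup (Fin 5) := ⟨s0, mem_alternatingGroup.2 (by decide)⟩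
  let g' : alternatingGroup (Fin 5) := ⟨g, mem_alternatingGroup.2 hg⟩
  obtain ⟨h, rfl⟩ := a5_conj (x := s) (Subtype.ext (by decide)) (fun e => absurd
    (congrArg Subtype.val e) (by decide)) hx hx1
  have e3 : h * s * h⁻¹ * (h * g' * h⁻¹ * (h * s * h⁻¹) * (h * g' * h⁻¹)⁻¹) =
      h * (s * (g' * s * g'⁻¹)) * h⁻¹ := by group
  refine ⟨h * g' * h⁻¹, ?_, ?_⟩
  · rw [e3]
    intro e
    exact e1 (congrArg Subtype.val (conj_eq_one_iff.1 e))
  · rw [e3, conj_pow, show (s * (g' * s * g'⁻¹)) ^ 5 = 1 from Subtype.ext e2]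
    group

theorem a5_exists : ∃ x : alternatingGroup (Fin 5), x * x = 1 ∧ x ≠ 1 :=
  ⟨⟨s0, mem_alternatingGroup.2 (by decide)⟩, Subtype.ext (by decide), fun e => absurd
    (congrArg Subtype.val e) (by decide)⟩

theorem card_a5 : Nat.card (alternatingGroup (Fin 5)) = 60 := by
  have := two_mul_nat_card_alternatingGroup (α := Fin 5)
  rw [Nat.card_perm, Nat.card_eq_fintype_card (α := Fin 5), Fintype.card_fin] at this
  simp only [Nat.factorial] at this
  omega

theorem card_a8 : Nat.card (alternatingGroup (Fin 8)) = 20160 := by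
  have := two_mul_nat_card_alternatingGroup (α := Fin 8)
  rw [Nat.card_perm, Nat.card_eq_fintype_card (α := Fin 8), Fintype.card_fin] at this
  simp only [Nat.factorial] at this
  omega

theorem card_syl_a8 (P : Sylow 2 (alternatingGroup (Fin 8))) : Nat.card P = 64 := by
  rw [Sylow.card_eq_multiplicity, card_a8]
  have : (20160 : ℕ) = 2 ^ 6 * 315 := by norm_num
  rw [this, Nat.factorization_mul (by norm_num) (by norm_num), Nat.Prime.factorization_pow
    Nat.prime_two]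
  simp [Nat.factorization_eq_zero_of_not_dvd (show ¬ 2 ∣ 315 by norm_num)]

end Cfsg.Agent.ALT
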