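import Cfsg.Agent.ALT.Small

/-!
The centre of a Sylow 2-subgroup of `A₈` has at most one nontrivial element.
-/

set_option autoImplicit false
set_option Elab.async false
set_option maxRecDepth 100000

namespace Cfsg.Agent.ALT

open Equiv Equiv.Perm Subgroup

theorem two_closure_insert {G : Type*} [Group G] [Finite G] {S : Set G}
    (hS : IsPGroup 2 (closure S)) {g : G} (hg : g * g = 1)
    (h : ∀ s ∈ S, g * s * g⁻¹ ∈ closure S) : IsPGroup 2 (closure (insert g S)) := by
  have hz : IsPGroup 2 (zpowers g) := by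
    rintro ⟨_, k, rfl⟩
    refine ⟨1, Subtype.ext ?_⟩
    show (g ^ k) ^ (2 ^ 1) = 1
    rw [← zpow_natCast, ← zpow_mul, mul_comm, zpow_mul, zpow_natCast, pow_one, pow_two, hg,
      one_zpow]
  have hc : ∀ x ∈ closure S, g * x * g⁻¹ ∈ closure S := fun x hx => by
    induction hx using closure_induction with
    | mem x hx => exact h x hx
    | one => simp
    | mul x y _ _ hx hy => simpa [mul_assoc] using mul_mem hx hy
    | inv x _ hx => simpa [mul_assoc] using inv_mem hx
  have hn : zpowers g ≤ normalizer (closure S : Set G) := by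
    rw [zpowers_le, mem_normalizer_iff]
    refine fun x => ⟨hc x, fun hx => ?_⟩
    have := hc _ hx
    have e : g * (g * x * g⁻¹) * g⁻¹ = (g * g) * x * (g * g)⁻¹ := by group
    rwa [e, hg, one_mul, inv_one, mul_one] at this
  have := hz.to_sup_of_normal_right' hS hn
  rwa [zpowers_eq_closure, ← Subgroup.closure_union, Set.singleton_union] at this

def r1 : alternatingGroup (Fin 8) :=
  ⟨swap 0 1 * swap 2 3 * swap 4 5 * swap 6 7, mem_alternatingGroup.2 (by decide)⟩
def r2 : alternatingGroup (Fin 8) :=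
  ⟨swap 0 2 * swap 1 3 * swap 4 6 * swap 5 7, mem_alternatingGroup.2 (by decide)⟩
def r3 : alternatingGroup (Fin 8) :=
  ⟨swap 0 4 * swap 1 5 * swap 2 6 * swap 3 7, mem_alternatingGroup.2 (by decide)⟩
def g1 : alternatingGroup (Fin 8) := ⟨swap 2 3 * swap 6 7, mem_alternatingGroup.2 (by decide)⟩
def g2 : alternatingGroup (Fin 8) := ⟨swap 4 5 * swap 6 7, mem_alternatingGroup.2 (by decide)⟩

theorem two_X : IsPGroup 2 (closure ({g2, g1, r3, r2, r1} : Set (alternatingGroup (Fin 8)))) := by
  have m : ∀ {S : Set (alternatingGroup (Fin 8))} {x y}, x = y → y ∈ S → x ∈ closure S :=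
    fun e h => e ▸ subset_closure h
  have m2 : ∀ {S : Set (alternatingGroup (Fin 8))} {x y z}, x = y * z → y ∈ S → z ∈ S →
      x ∈ closure S := fun e h h' => e ▸ mul_mem (subset_closure h) (subset_closure h')
  have h0 : IsPGroup 2 (closure (∅ : Set (alternatingGroup (Fin 8)))) := by
    rw [Subgroup.closure_empty]; exact IsPGroup.of_bot
  have h1 : IsPGroup 2 (closure ({r1} : Set (alternatingGroup (Fin 8)))) := by
    have := two_closure_insert h0 (g := r1) (Subtype.ext (by decide)) (by simp)
    rwa [insert_empty_eq] at this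
  have h2 := two_closure_insert h1 (g := r2) (Subtype.ext (by decide)) (by
    rintro s rfl
    exact m (y := r1) (Subtype.ext (by decide)) (by simp))
  have h3 := two_closure_insert h2 (g := r3) (Subtype.ext (by decide)) (by
    rintro s (rfl | rfl)
    · exact m (y := r2) (Subtype.ext (by decide)) (by simp)
    · exact m (y := r1) (Subtype.ext (by decide)) (by simp))
  have h4 := two_closure_insert h3 (g := g1) (Subtype.ext (by decide)) (by
    rintro s (rfl | rfl | rfl)
    · exact m (y := r3) (Subtype.ext (by decide)) (by simp)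
    · exact m2 (y := r1) (z := r2) (Subtype.ext (by decide)) (by simp) (by simp)
    · exact m (y := r1) (Subtype.ext (by decide)) (by simp))
  exact two_closure_insert h4 (g := g2) (Subtype.ext (by decide)) (by
    rintro s (rfl | rfl | rfl | rfl)
    · exact m (y := g1) (Subtype.ext (by decide)) (by simp)
    · exact m2 (y := r1) (z := r3) (Subtype.ext (by decide)) (by simp) (by simp)
    · exact m (y := r2) (Subtype.ext (by decide)) (by simp)
    · exact m (y := r1) (Subtype.ext (by decide)) (by simp))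

theorem cent_X {z : alternatingGroup (Fin 8)}
    (h : ∀ s ∈ ({g2, g1, r3, r2, r1} : Set (alternatingGroup (Fin 8))), z * s = s * z) :
    z = 1 ∨ z = r1 := by
  have a : ∀ s ∈ ({g2, g1, r3, r2, r1} : Set (alternatingGroup (Fin 8))), ∀ i,
      z.1 (s.1 i) = s.1 (z.1 i) := fun s hs i => congrArg (fun x => x.1 i) (h s hs)
  have a1 := a r1 (by simp)
  have a2 := a r2 (by simp)
  have a3 := a r3 (by simp)
  have b1 : z.1 0 = g1.1 (z.1 0) := a g1 (by simp) 0
  have b2 : z.1 0 = g2.1 (z.1 0) := a g2 (by simp) 0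
  have c : ∀ j : Fin 8, j = g1.1 j → j = g2.1 j → j = 0 ∨ j = 1 := by decide
  have e1 : z.1 1 = r1.1 (z.1 0) := a1 0
  have e2 : z.1 2 = r2.1 (z.1 0) := a2 0
  have e3 : z.1 3 = r2.1 (z.1 1) := a2 1
  have e4 : z.1 4 = r3.1 (z.1 0) := a3 0
  have e5 : z.1 5 = r3.1 (z.1 1) := a3 1
  have e6 : z.1 6 = r3.1 (z.1 2) := a3 2
  have e7 : z.1 7 = r3.1 (z.1 3) := a3 3
  rw [e1] at e3 e5
  rw [e2] at e6
  rw [e3] at e7
  refine (c _ b1 b2).imp (fun e0 => ?_) fun e0 => ?_ <;>
  · rw [e0] at e1 e2 e3 e4 e5 e6 e7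
    refine Subtype.ext (Equiv.ext fun i => ?_)
    fin_cases i
    · exact e0
    · exact e1
    · exact e2
    · exact e3
    · exact e4
    · exact e5
    · exact e6
    · exact e7

theorem center_syl_a8 (P : Sylow 2 (alternatingGroup (Fin 8))) {z w : P}
    (hz : ∀ y, z * y = y * z) (hw : ∀ y, w * y = y * w) (hz1 : z ≠ 1) (hw1 : w ≠ 1) : z = w := by
  obtain ⟨Q, hQ⟩ := two_X.exists_le_sylow
  let e := Sylow.equiv P Q
  have key : ∀ u : P, (∀ y, u * y = y * u) → u ≠ 1 → (e u : alternatingGroup (Fin 8)) = r1 := by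
    intro u hu hu1
    refine (cent_X fun s hs => ?_).resolve_left fun h => hu1 ?_
    · have := congrArg e (hu (e.symm ⟨s, hQ (subset_closure hs)⟩))
      rw [map_mul, map_mul, MulEquiv.apply_symm_apply] at this
      exact congrArg Subtype.val this
    · exact e.injective (by rw [map_one]; exact Subtype.ext h)
  exact e.injective (Subtype.ext ((key z hz hz1).trans (key w hw hw1).symm))

end Cfsg.Agent.ALT
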